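import Mathlib
import Cfsg.Agent.Lib.Helper2.PGroup

set_option autoImplicit false

namespace Cfsg.Agent.Lib.Helper4

variable {G : Type*} [Group G] [Finite G]

/-- the closed interval of subgroups as a finset -/
noncomputable def h4Ic (H T : Subgroup G) : Finset (Subgroup G) :=
  letI : Fintype (Subgroup G) := Fintype.ofFinite _
  haveI : DecidablePred (fun R : Subgroup G => H ≤ R ∧ R ≤ T) := Classical.decPred _
  Finset.univ.filter (fun R => H ≤ R ∧ R ≤ T)

theorem h4_mem_Ic {H T R : Subgroup G} : R ∈ h4Ic H T ↔ H ≤ R ∧ R ≤ T := by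
  unfold h4Ic
  simp

open Classical in
/-- A Möbius-type weight based at `H`. -/
def h4IsMu (H : Subgroup G) (m : Subgroup G → ℤ) : Prop :=
  ∀ T : Subgroup G, H ≤ T → ∑ R ∈ h4Ic H T, m R = if T = H then 1 else 0

theorem h4_exists_mu (H : Subgroup G) : ∃ m : Subgroup G → ℤ, h4IsMu H m := by
  classical
  letI : Fintype (Subgroup G) := Fintype.ofFinite _
  letI : LocallyFiniteOrder (Subgroup G) := Fintype.toLocallyFiniteOrder
  refine ⟨fun R => IncidenceAlgebra.mu ℤ H R, ?_⟩
  intro T hT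
  have h1 := IncidenceAlgebra.sum_Icc_mu_right (𝕜 := ℤ) H T
  have h2 : h4Ic H T = Finset.Icc H T := by
    ext R
    rw [h4_mem_Ic, Finset.mem_Icc]
  rw [h2, h1]
  by_cases h : H = T
  · simp [h]
  · have h' : T ≠ H := fun h' => h h'.symm
    simp [h, h']

theorem h4_mu_self (H : Subgroup G) (m : Subgroup G → ℤ) (hm : h4IsMu H m) : m H = 1 := by
  have h1 := hm H le_rfl
  have h2 : h4Ic H H = {H} := by
    ext R
    rw [h4_mem_Ic, Finset.mem_singleton]
    exact ⟨fun h => le_antisymm h.2 h.1, fun h => by rw [h]; exact ⟨le_rfl, le_rfl⟩⟩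
  rw [h2, Finset.sum_singleton] at h1
  simpa using h1

open Classical in
/-- Weisner's theorem. -/
theorem h4_weisner (H : Subgroup G) (m : Subgroup G → ℤ) (hm : h4IsMu H m) (K : Subgroup G)
    (hHK : H ≤ K) (hne : K ≠ H) :
    ∀ M : Subgroup G, K ≤ M →
      ∑ R ∈ (h4Ic H M).filter (fun R => R ⊔ K = M), m R = 0 := by
  classical
  have key : ∀ n : ℕ, ∀ M : Subgroup G, Nat.card M = n → K ≤ M →
      ∑ R ∈ (h4Ic H M).filter (fun R => R ⊔ K = M), m R = 0 := by
    intro n
    induction n using Nat.strong_induction_on with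
    | _ n ih =>
      intro M hn hKM
      have hHM : H ≤ M := hHK.trans hKM
      have hMH : M ≠ H := by
        rintro rfl
        exact hne (le_antisymm hKM hHK)
      have h0 : ∑ R ∈ h4Ic H M, m R = 0 := by rw [hm M hHM, if_neg hMH]
      have hmaps : ∀ R ∈ h4Ic H M, R ⊔ K ∈ h4Ic K M := by
        intro R hR
        rw [h4_mem_Ic] at hR ⊢
        exact ⟨le_sup_right, sup_le hR.2 hKM⟩
      rw [← Finset.sum_fiberwise_of_maps_to hmaps] at h0
      rw [Finset.sum_eq_single M] at h0
      · exact h0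
      · intro M' hM' hne'
        rw [h4_mem_Ic] at hM'
        have hlt : Nat.card M' < Nat.card M :=
          lt_of_not_ge (fun h => hne' (Subgroup.eq_of_le_of_card_ge hM'.2 h))
        have h1 := ih (Nat.card M') (hn ▸ hlt) M' rfl hM'.1
        have h2 : (h4Ic H M).filter (fun R => R ⊔ K = M') =
            (h4Ic H M').filter (fun R => R ⊔ K = M') := by
          ext R
          simp only [Finset.mem_filter, h4_mem_Ic]
          constructor
          · rintro ⟨⟨h1, h2⟩, h3⟩
            exact ⟨⟨h1, h3 ▸ le_sup_left⟩, h3⟩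
          · rintro ⟨⟨h1, h2⟩, h3⟩
            exact ⟨⟨h1, h2.trans hM'.2⟩, h3⟩
        rw [h2]; exact h1
      · intro hM
        exact absurd (h4_mem_Ic.2 ⟨hKM, le_rfl⟩) hM
  intro M hKM
  exact key (Nat.card M) M rfl hKM

/-- The weight sums to zero over an order ideal closed under joining with a fixed `K > H`. -/
theorem h4_ideal_sum (H : Subgroup G) (m : Subgroup G → ℤ) (hm : h4IsMu H m) (K : Subgroup G)
    (hHK : H ≤ K) (hne : K ≠ H) (A : Finset (Subgroup G))
    (hA1 : ∀ R ∈ A, H ≤ R) (hA2 : ∀ R ∈ A, ∀ R' : Subgroup G, H ≤ R' → R' ≤ R → R' ∈ A)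
    (hA3 : ∀ R ∈ A, R ⊔ K ∈ A) : ∑ R ∈ A, m R = 0 := by
  classical
  rw [← Finset.sum_fiberwise_of_maps_to hA3]
  apply Finset.sum_eq_zero
  intro M hM
  by_cases hKM : K ≤ M
  · have h2 : A.filter (fun R => R ⊔ K = M) = (h4Ic H M).filter (fun R => R ⊔ K = M) := by
      ext R
      simp only [Finset.mem_filter, h4_mem_Ic]
      constructor
      · rintro ⟨h1, h3⟩
        exact ⟨⟨hA1 R h1, h3 ▸ le_sup_left⟩, h3⟩
      · rintro ⟨⟨h1, h2⟩, h3⟩
        exact ⟨hA2 M hM R h1 h2, h3⟩
    rw [h2]; exact h4_weisner H m hm K hHK hne M hKM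
  · apply Finset.sum_eq_zero
    intro R hR
    rw [Finset.mem_filter] at hR
    exact absurd (hR.2 ▸ le_sup_right) hKM

/-- The weight vanishes on `p`-groups in which `H` is not normal. -/
theorem h4_mu_vanish (p : ℕ) [Fact p.Prime] (H : Subgroup G) (m : Subgroup G → ℤ)
    (hm : h4IsMu H m) (R : Subgroup G) (hR : IsPGroup p R) (hHR : H ≤ R)
    (hN : ¬ R ≤ Subgroup.normalizer (H : Set G)) : m R = 0 := by
  classical
  obtain ⟨r, hrR, hrN⟩ := SetLike.not_le_iff_exists.1 hN
  set K := H ⊔ H.map (MulAut.conj r).toMonoidHom with hK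
  have hHK : H ≤ K := le_sup_left
  have hKne : K ≠ H := by
    intro h
    apply hrN
    rw [Subgroup.mem_normalizer_iff]
    have hconj : ∀ h' ∈ H, r * h' * r⁻¹ ∈ H := by
      intro h' hh'
      have h1 : r * h' * r⁻¹ ∈ K :=
        (le_sup_right : H.map (MulAut.conj r).toMonoidHom ≤ K) ⟨h', hh', rfl⟩
      rwa [h] at h1
    intro h'
    refine ⟨hconj h', fun hh => ?_⟩
    let f : H → H := fun h' => ⟨r * h' * r⁻¹, hconj h' h'.2⟩
    have hf : Function.Injective f := by
      intro a b hab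
      have h1 := congrArg Subtype.val hab
      simp only [f] at h1
      apply Subtype.ext
      exact mul_left_cancel (mul_right_cancel h1)
    obtain ⟨y, hy⟩ := (Finite.surjective_of_injective hf) ⟨r * h' * r⁻¹, hh⟩
    have h1 := congrArg Subtype.val hy
    simp only [f] at h1
    have h2 : (y : G) = h' := mul_left_cancel (mul_right_cancel h1)
    rw [← h2]; exact y.2
  have hKR : K ≤ R := by
    refine sup_le hHR ?_
    rintro _ ⟨h', hh', rfl⟩
    exact R.mul_mem (R.mul_mem hrR (hHR hh')) (R.inv_mem hrR)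
  have hW := h4_weisner H m hm K hHK hKne R hKR
  have hfil : (h4Ic H R).filter (fun X => X ⊔ K = R) = {R} := by
    ext X
    simp only [Finset.mem_filter, h4_mem_Ic, Finset.mem_singleton]
    constructor
    · rintro ⟨⟨hHX, hXR⟩, hXK⟩
      by_contra hne
      have hXtop : X.subgroupOf R ≠ ⊤ := by
        rw [Ne, Subgroup.subgroupOf_eq_top]
        intro h; exact hne (le_antisymm hXR h)
      obtain ⟨M', hM', hXM'⟩ := (eq_top_or_exists_le_coatom (X.subgroupOf R)).resolve_left hXtop
      have hM'n : M'.Normal := Cfsg.Agent.Lib.Helper2.coatom_normal_of_pGroup hR M' hM'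
      have hXM'' : X ≤ M'.map R.subtype := by
        have h1 := Subgroup.map_mono (f := R.subtype) hXM'
        rwa [Subgroup.map_subgroupOf_eq_of_le hXR] at h1
      have hKM'' : K ≤ M'.map R.subtype := by
        refine sup_le (hHX.trans hXM'') ?_
        rintro _ ⟨h', hh', rfl⟩
        obtain ⟨y, hy, hyh⟩ := hXM'' (hHX hh')
        refine ⟨⟨r, hrR⟩ * y * ⟨r, hrR⟩⁻¹, hM'n.conj_mem y hy ⟨r, hrR⟩, ?_⟩
        simp [← hyh]
      have hle : R ≤ M'.map R.subtype := hXK.symm.le.trans (sup_le hXM'' hKM'')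
      apply hM'.1
      rw [eq_top_iff]
      intro x _
      obtain ⟨y, hy, hyx⟩ := hle x.2
      have h1 : y = x := Subtype.ext hyx
      rw [← h1]; exact hy
    · rintro rfl
      exact ⟨⟨hHR, le_rfl⟩, sup_eq_left.2 hKR⟩
  rw [hfil, Finset.sum_singleton] at hW
  exact hW

end Cfsg.Agent.Lib.Helper4
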